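import Mathlib
import Cfsg.Agent.Characters.ClassMul
import Cfsg.Agent.SmallSimple.SelfCentSum

/-!
# The second moment lemma (helper949, for S3828)

`T` a subgroup with `C_G(x) = T` for all `1 ≠ x ∈ T`, `C` a normal set closed under commutators whose nontrivial elements
are conjugate into `T`.  If the nontrivial irreducible characters of `G` have large degree then `C ⊆ {1}`.

* `class_mul_le` : upper bound for class multiplication constants;
* `second_moment`.
-/

set_option autoImplicit false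
set_option linter.unusedSectionVars false

namespace Cfsg.Agent.H949.SMom

open Cfsg Cfsg.Agent.Characters Subgroup
open scoped ComplexConjugate

universe u

variable {G : Type u} [Group G] [Finite G]

/-- the sum of the squared norms over the nontrivial characters -/
theorem sum_erase_sq [Fintype (IrrCharacter G)] [DecidableEq (IrrCharacter G)] (x : G) {h : ℕ}
    (hx : Nat.card (centralizer ({x} : Set G)) = h) :
    ∑ χ ∈ Finset.univ.erase (⟨1, Core.isIrr_one⟩ : IrrCharacter G), ‖(χ : G → ℂ) x‖ ^ 2 = (h : ℝ) - 1 := by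
  have h1 := Cfsg.Agent.SmallSimple.SelfCentSum.sum_norm_sq x
  rw [hx, ← Finset.add_sum_erase Finset.univ _ (Finset.mem_univ (⟨1, Core.isIrr_one⟩ : IrrCharacter G))] at h1
  have h2 : ‖((⟨1, Core.isIrr_one⟩ : IrrCharacter G) : G → ℂ) x‖ ^ 2 = 1 := by simp
  rw [h2] at h1
  linarith

/-- **Upper bound for the class multiplication constants.** -/
theorem class_mul_le (x y z : G) {h : ℕ} (hx : Nat.card (centralizer ({x} : Set G)) = h)
    (hy : Nat.card (centralizer ({y} : Set G)) = h) (hz : Nat.card (centralizer ({z} : Set G)) = h)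
    {D B : ℝ} (hD0 : 0 < D) (hD : ∀ χ : IrrCharacter G, (χ : G → ℂ) ≠ 1 → D ≤ ‖(χ : G → ℂ) 1‖)
    (hB : ((h : ℝ) - 1) * Real.sqrt ((h : ℝ) - 1) ≤ B * D) :
    (Nat.card {p : G × G // IsConj x p.1 ∧ IsConj y p.2 ∧ p.1 * p.2 = z} : ℝ) * (h : ℝ) ^ 2 ≤
      Nat.card G * (1 + B) := by
  classical
  have : Finite (IrrCharacter G) := Core.finite_irr
  have := Fintype.ofFinite (IrrCharacter G)
  have h1 := ClassMul.card_class_mul x y z
  set N := Nat.card {p : G × G // IsConj x p.1 ∧ IsConj y p.2 ∧ p.1 * p.2 = z} with hN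
  set one : IrrCharacter G := ⟨1, Core.isIrr_one⟩ with hone
  set S := ∑ χ : IrrCharacter G, (χ : G → ℂ) x * (χ : G → ℂ) y * conj ((χ : G → ℂ) z) / (χ : G → ℂ) 1 with hS
  have hSn : ‖S‖ ≤ 1 + B := by
    rw [hS, ← Finset.add_sum_erase Finset.univ _ (Finset.mem_univ one)]
    have h3 : ((one : G → ℂ) x * (one : G → ℂ) y * conj ((one : G → ℂ) z) / (one : G → ℂ) 1) = 1 := by
      simp [hone]
    rw [h3]
    refine (norm_add_le _ _).trans ?_
    rw [norm_one]
    have h4 : ‖∑ χ ∈ Finset.univ.erase one, (χ : G → ℂ) x * (χ : G → ℂ) y * conj ((χ : G → ℂ) z) / (χ : G → ℂ) 1‖ ≤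
        ∑ χ ∈ Finset.univ.erase one, (‖(χ : G → ℂ) x‖ ^ 2 + ‖(χ : G → ℂ) y‖ ^ 2) / 2 *
          (Real.sqrt ((h : ℝ) - 1) / D) := by
      refine (norm_sum_le _ _).trans (Finset.sum_le_sum fun χ hχ => ?_)
      have hχ1 : (χ : G → ℂ) ≠ 1 := fun h => (Finset.ne_of_mem_erase hχ) (Subtype.ext h)
      have e1 := hD χ hχ1
      have e2 : ‖(χ : G → ℂ) z‖ ≤ Real.sqrt ((h : ℝ) - 1) := by
        apply Real.le_sqrt_of_sq_le
        rw [← sum_erase_sq z hz]
        exact Finset.single_le_sum (f := fun χ : IrrCharacter G => ‖(χ : G → ℂ) z‖ ^ 2)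
          (fun i _ => by positivity) hχ
      rw [norm_div, norm_mul, norm_mul, Complex.norm_conj, mul_div_assoc]
      apply mul_le_mul _ (div_le_div₀ (Real.sqrt_nonneg _) e2 hD0 e1) (by positivity) (by positivity)
      nlinarith [sq_nonneg (‖(χ : G → ℂ) x‖ - ‖(χ : G → ℂ) y‖)]
    have h5 : ∑ χ ∈ Finset.univ.erase one, (‖(χ : G → ℂ) x‖ ^ 2 + ‖(χ : G → ℂ) y‖ ^ 2) / 2 *
          (Real.sqrt ((h : ℝ) - 1) / D) = ((h : ℝ) - 1) * (Real.sqrt ((h : ℝ) - 1) / D) := by
      rw [← Finset.sum_mul, ← Finset.sum_div, Finset.sum_add_distrib, hone, sum_erase_sq x hx, sum_erase_sq y hy]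
      ring
    have h6 : ((h : ℝ) - 1) * (Real.sqrt ((h : ℝ) - 1) / D) ≤ B := by
      rw [← mul_div_assoc, div_le_iff₀ hD0]
      exact hB
    linarith
  have hGpos : (0 : ℝ) < Nat.card G := by exact_mod_cast Nat.card_pos
  have hix : (h : ℝ) * (centralizer ({x} : Set G)).index = Nat.card G := by
    rw [← hx]; exact_mod_cast (centralizer ({x} : Set G)).card_mul_index
  have hiy : (h : ℝ) * (centralizer ({y} : Set G)).index = Nat.card G := by
    rw [← hy]; exact_mod_cast (centralizer ({y} : Set G)).card_mul_index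
  have h7 : (N : ℝ) = ((centralizer ({x} : Set G)).index : ℝ) * ((centralizer ({y} : Set G)).index : ℝ) /
      (Nat.card G : ℝ) * ‖S‖ := by
    have h8 := congrArg norm h1
    rw [norm_mul, norm_div, norm_mul, Complex.norm_natCast, Complex.norm_natCast, Complex.norm_natCast,
      Complex.norm_natCast] at h8
    exact h8
  have h9 : (N : ℝ) * (h : ℝ) ^ 2 = Nat.card G * ‖S‖ := by
    rw [h7]
    have : ((centralizer ({x} : Set G)).index : ℝ) * ((centralizer ({y} : Set G)).index : ℝ) /
      (Nat.card G : ℝ) * ‖S‖ * (h : ℝ) ^ 2 = ((h : ℝ) * (centralizer ({x} : Set G)).index) *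
        ((h : ℝ) * (centralizer ({y} : Set G)).index) / (Nat.card G : ℝ) * ‖S‖ := by ring
    rw [this, hix, hiy]
    field_simp
  rw [h9]
  exact mul_le_mul_of_nonneg_left hSn hGpos.le

/-- the number of conjugates inside `T` -/
theorem card_conj_in [Fintype G] [DecidableEq G] (T : Subgroup G) [DecidablePred (· ∈ T)] [DecidableRel (IsConj (α := G))]
    {h n : ℕ} (hh : 0 < h) (hT : Nat.card T = h)
    (hcent : ∀ x ∈ T, x ≠ 1 → centralizer ({x} : Set G) = T)
    (hn : n * h ≤ Nat.card (normalizer (T : Set G))) {x : G} (hx : x ∈ T) (hx1 : x ≠ 1) :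
    n ≤ (Finset.univ.filter (fun y : G => (y ∈ T ∧ y ≠ 1) ∧ IsConj x y)).card := by
  classical
  set s : Finset G := Finset.univ.filter (fun m : G => m ∈ normalizer (T : Set G)) with hs
  have h1 : s.card ≤ h * (s.image (fun m => m * x * m⁻¹)).card := by
    refine Finset.card_le_mul_card_image s h ?_
    intro u hu
    obtain ⟨m, hm, rfl⟩ := Finset.mem_image.1 hu
    have h2 := ClassMul.card_fiber_conj x (m * x * m⁻¹) (isConj_iff.2 ⟨m, rfl⟩)
    rw [hcent x hx hx1, hT, Nat.card_eq_fintype_card, Fintype.card_subtype] at h2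
    rw [← h2]
    exact Finset.card_le_card (Finset.filter_subset_filter _ (Finset.subset_univ _))
  have h3 : s.card = Nat.card (normalizer (T : Set G)) := by
    rw [hs, Nat.card_eq_fintype_card, Fintype.card_subtype]
  have h4 : s.image (fun m => m * x * m⁻¹) ⊆ Finset.univ.filter (fun y : G => (y ∈ T ∧ y ≠ 1) ∧ IsConj x y) := by
    intro u hu
    obtain ⟨m, hm, rfl⟩ := Finset.mem_image.1 hu
    rw [hs, Finset.mem_filter] at hm
    rw [Finset.mem_filter]
    refine ⟨Finset.mem_univ _, ⟨(mem_normalizer_iff.1 hm.2 x).1 hx, ?_⟩, isConj_iff.2 ⟨m, rfl⟩⟩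
    intro h5
    exact hx1 (by simpa using h5)
  have h5 := Finset.card_le_card h4
  rw [h3] at h1
  have h6 : n * h ≤ (Finset.univ.filter (fun y : G => (y ∈ T ∧ y ≠ 1) ∧ IsConj x y)).card * h := by
    calc n * h ≤ h * (s.image (fun m => m * x * m⁻¹)).card := hn.trans h1
      _ ≤ h * _ := Nat.mul_le_mul_left _ h5
      _ = _ := Nat.mul_comm _ _
  exact Nat.le_of_mul_le_mul_right h6 hh

/-- a map `A → E` with `N₂` pairs of equal values: `|A|² ≤ |E| N₂` -/
theorem card_sq_le {α β : Type*} [DecidableEq α] [DecidableEq β] (A : Finset α) (E : Finset β) (f : α → β)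
    (hf : ∀ a ∈ A, f a ∈ E) : A.card ^ 2 ≤ E.card * ∑ a ∈ A, (A.filter (fun b => f b = f a)).card := by
  have h1 : A.card = ∑ e ∈ E, (A.filter (fun a => f a = e)).card := Finset.card_eq_sum_card_fiberwise hf
  have h2 : ∑ a ∈ A, (A.filter (fun b => f b = f a)).card = ∑ e ∈ E, (A.filter (fun a => f a = e)).card ^ 2 := by
    rw [← Finset.sum_fiberwise_of_maps_to hf]
    refine Finset.sum_congr rfl fun e _ => ?_
    rw [sq, ← smul_eq_mul, ← Finset.sum_const]
    refine Finset.sum_congr rfl fun a ha => ?_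
    rw [(Finset.mem_filter.1 ha).2]
  rw [h2]
  conv_lhs => rw [h1]
  exact sq_sum_le_card_mul_sum_sq

/-- **The second moment lemma.** -/
theorem second_moment {C : Set G} (hconj : ∀ g : G, ∀ c ∈ C, g * c * g⁻¹ ∈ C)
    (hcomm : ∀ c ∈ C, ∀ d ∈ C, c⁻¹ * d⁻¹ * c * d ∈ C) {T : Subgroup G} {h n : ℕ} (hT : Nat.card T = h)
    (hcent : ∀ x ∈ T, x ≠ 1 → centralizer ({x} : Set G) = T)
    (hCT : ∀ c ∈ C, c ≠ 1 → ∃ g : G, g * c * g⁻¹ ∈ T) (hn0 : 0 < n)
    (hn : n * h ≤ Nat.card (normalizer (T : Set G)))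
    {D B : ℝ} (hD0 : 0 < D) (hD : ∀ χ : IrrCharacter G, (χ : G → ℂ) ≠ 1 → D ≤ ‖(χ : G → ℂ) 1‖)
    (hB : ((h : ℝ) - 1) * Real.sqrt ((h : ℝ) - 1) ≤ B * D)
    (hlt : ((h : ℝ) / Nat.card G + ((h : ℝ) - 1) * (1 + B) / (n * h)) * (1 + ((h : ℝ) - 1) * (1 + B) / h) < 1) :
    ∀ c ∈ C, c = 1 := by
  classical
  have := Fintype.ofFinite G
  by_contra hno
  push Not at hno
  obtain ⟨c₀, hc₀, hne₀⟩ := hno
  obtain ⟨g₀, hg₀⟩ := hCT c₀ hc₀ hne₀
  obtain ⟨c, hcC, hc1, hcT⟩ : ∃ c ∈ C, c ≠ 1 ∧ c ∈ T :=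
    ⟨_, hconj g₀ c₀ hc₀, fun h5 => hne₀ (by simpa using h5), hg₀⟩
  have hh : 0 < h := hT ▸ Nat.card_pos
  have hhR : (0 : ℝ) < h := by exact_mod_cast hh
  have hGpos : (0 : ℝ) < Nat.card G := by exact_mod_cast Nat.card_pos
  have hnR : (0 : ℝ) < n := by exact_mod_cast hn0
  have hcc : Nat.card (centralizer ({c} : Set G)) = h := by rw [hcent c hcT hc1, hT]
  have hcx : ∀ x ∈ T, x ≠ 1 → Nat.card (centralizer ({x} : Set G)) = h := fun x hx hx1 => by
    rw [hcent x hx hx1, hT]
  have hB0 : 0 ≤ B := by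
    by_contra hneg
    push Not at hneg
    have h1 : B * D < 0 := mul_neg_of_neg_of_pos hneg hD0
    have h2 : 0 ≤ ((h : ℝ) - 1) * Real.sqrt ((h : ℝ) - 1) := by
      apply mul_nonneg _ (Real.sqrt_nonneg _)
      have : (1 : ℝ) ≤ h := by exact_mod_cast hh
      linarith
    linarith
  set A : Finset G := Finset.univ.filter (IsConj c) with hA
  set a : ℝ := (A.card : ℝ) with ha
  have hah : a * h = Nat.card G := by
    rw [ha, hA, ClassMul.card_filter_isConj, ← hcc, mul_comm]
    exact_mod_cast (centralizer ({c} : Set G)).card_mul_index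
  have ha0 : 0 < a := by
    by_contra hneg
    push Not at hneg
    have : a * h ≤ 0 := mul_nonpos_of_nonpos_of_nonneg hneg hhR.le
    linarith
  have hAC : ∀ d ∈ A, d ∈ C := by
    intro d hd
    rw [hA, Finset.mem_filter] at hd
    obtain ⟨g, rfl⟩ := isConj_iff.1 hd.2
    exact hconj g c hcC
  let f : G → G := fun d => c⁻¹ * d⁻¹ * c * d
  set E : Finset G := Finset.univ.filter (fun e => e ∈ C ∧ IsConj c (c * e)) with hE
  have hfE : ∀ d ∈ A, f d ∈ E := by
    intro d hd
    rw [hE, Finset.mem_filter]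
    refine ⟨Finset.mem_univ _, hcomm c hcC d (hAC d hd), isConj_iff.2 ⟨d⁻¹, ?_⟩⟩
    simp only [f]
    group
  have hmain := card_sq_le A E f hfE
  -- the bound for the nontrivial class multiplication constants
  let N : G → G → G → ℕ := fun x y z => Nat.card {p : G × G // IsConj x p.1 ∧ IsConj y p.2 ∧ p.1 * p.2 = z}
  have hNle : ∀ x y z : G, Nat.card (centralizer ({x} : Set G)) = h → Nat.card (centralizer ({y} : Set G)) = h →
      Nat.card (centralizer ({z} : Set G)) = h → (N x y z : ℝ) ≤ a * (1 + B) / h := by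
    intro x y z hx hy hz
    have h1 := class_mul_le x y z hx hy hz hD0 hD hB
    rw [le_div_iff₀ hhR]
    rw [← hah] at h1
    have h2 : (N x y z : ℝ) * h * h ≤ a * (1 + B) * h := by
      calc (N x y z : ℝ) * h * h = (N x y z : ℝ) * (h : ℝ) ^ 2 := by ring
        _ ≤ a * h * (1 + B) := h1
        _ = _ := by ring
    exact le_of_mul_le_mul_right h2 hhR
  have hinv : ∀ x : G, Nat.card (centralizer ({x⁻¹} : Set G)) = Nat.card (centralizer ({x} : Set G)) := by
    intro x
    have e : centralizer ({x⁻¹} : Set G) = centralizer ({x} : Set G) := by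
      ext y
      rw [mem_centralizer_singleton_iff, mem_centralizer_singleton_iff]
      constructor
      · intro h1
        have h2 : Commute y x⁻¹ := h1
        exact (Commute.inv_right_iff.1 h2)
      · intro h1
        have h2 : Commute y x := h1
        exact h2.inv_right
    rw [e]
  set T' : Finset G := Finset.univ.filter (fun x => x ∈ T ∧ x ≠ 1) with hT'
  have hT'card : (T'.card : ℝ) = (h : ℝ) - 1 := by
    have h1 : (Finset.univ.filter (fun x => x ∈ T)).card = h := by
      rw [← hT, Nat.card_eq_fintype_card, Fintype.card_subtype]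
    have h2 : Finset.univ.filter (fun x => x ∈ T) = insert 1 T' := by
      ext x
      rw [Finset.mem_insert, hT', Finset.mem_filter, Finset.mem_filter]
      constructor
      · rintro ⟨_, hx⟩
        by_cases h3 : x = 1
        · exact Or.inl h3
        · exact Or.inr ⟨Finset.mem_univ _, hx, h3⟩
      · rintro (rfl | ⟨_, hx, _⟩)
        · exact ⟨Finset.mem_univ _, one_mem _⟩
        · exact ⟨Finset.mem_univ _, hx⟩
    rw [h2, Finset.card_insert_of_notMem (by rw [hT', Finset.mem_filter]; tauto)] at h1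
    rw [← h1]
    push_cast
    ring
  -- `N₂`
  have hN2 : ((∑ d ∈ A, (A.filter (fun d' => f d' = f d)).card : ℕ) : ℝ) ≤
      a * (1 + ((h : ℝ) - 1) * (1 + B) / h) := by
    have h1 : ∀ d ∈ A, (A.filter (fun d' => f d' = f d)).card ≤
        1 + ∑ x ∈ T', (A.filter (fun d' => d' * d⁻¹ = x)).card := by
      intro d hd
      have h2 : A.filter (fun d' => f d' = f d) ⊆ insert d (T'.biUnion (fun x => A.filter (fun d' => d' * d⁻¹ = x))) := by
        intro d' hd'
        rw [Finset.mem_filter] at hd'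
        rw [Finset.mem_insert, Finset.mem_biUnion]
        by_cases h3 : d' = d
        · exact Or.inl h3
        · right
          refine ⟨d' * d⁻¹, ?_, by rw [Finset.mem_filter]; exact ⟨hd'.1, rfl⟩⟩
          rw [hT', Finset.mem_filter]
          refine ⟨Finset.mem_univ _, ?_, fun h4 => h3 (mul_inv_eq_one.1 h4)⟩
          rw [← hcent c hcT hc1, mem_centralizer_singleton_iff]
          have h5 : c⁻¹ * d'⁻¹ * c * d' = c⁻¹ * d⁻¹ * c * d := hd'.2
          have h6 : d'⁻¹ * c * d' = d⁻¹ * c * d := by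
            have := congrArg (fun z => c * z) h5
            simp only [mul_assoc] at this
            simpa [mul_assoc] using this
          calc d' * d⁻¹ * c = d' * (d⁻¹ * c * d) * d⁻¹ := by group
            _ = d' * (d'⁻¹ * c * d') * d⁻¹ := by rw [h6]
            _ = c * (d' * d⁻¹) := by group
      refine (Finset.card_le_card h2).trans ((Finset.card_insert_le _ _).trans ?_)
      rw [Nat.add_comm]
      exact Nat.add_le_add_left Finset.card_biUnion_le _
    have h2 : ∑ d ∈ A, (A.filter (fun d' => f d' = f d)).card ≤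
        A.card + ∑ x ∈ T', ∑ d ∈ A, (A.filter (fun d' => d' * d⁻¹ = x)).card := by
      refine (Finset.sum_le_sum h1).trans ?_
      rw [Finset.sum_add_distrib, Finset.sum_comm]
      simp
    have h3 : ∀ x ∈ T', ∑ d ∈ A, (A.filter (fun d' => d' * d⁻¹ = x)).card ≤ N c c⁻¹ x := by
      intro x hx
      have h4 : ∑ d ∈ A, (A.filter (fun d' => d' * d⁻¹ = x)).card =
          ((A ×ˢ A).filter (fun p => p.2 * p.1⁻¹ = x)).card := by
        rw [Finset.card_filter, Finset.sum_product]
        refine Finset.sum_congr rfl fun d _ => ?_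
        rw [Finset.card_filter]
      rw [h4]
      show _ ≤ Nat.card {p : G × G // IsConj c p.1 ∧ IsConj c⁻¹ p.2 ∧ p.1 * p.2 = x}
      rw [Nat.card_eq_fintype_card, Fintype.card_subtype]
      refine Finset.card_le_card_of_injOn (fun p => (p.2, p.1⁻¹)) ?_ ?_
      · intro p hp
        have hp := Finset.mem_coe.1 hp
        rw [Finset.mem_filter, Finset.mem_product, hA, Finset.mem_filter, Finset.mem_filter] at hp
        have hp2 := hp.1.1.2
        obtain ⟨g, hg⟩ := isConj_iff.1 hp2
        simp only [Finset.coe_filter, Set.mem_ofPred_eq, Finset.mem_univ, true_and]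
        refine ⟨hp.1.2.2, isConj_iff.2 ⟨g, ?_⟩, hp.2⟩
        rw [← hg]
        group
      · rintro ⟨p1, p2⟩ _ ⟨q1, q2⟩ _ hpq
        simp only [Prod.mk.injEq, inv_inj] at hpq
        exact Prod.ext hpq.2 hpq.1
    have h5 : ((∑ x ∈ T', ∑ d ∈ A, (A.filter (fun d' => d' * d⁻¹ = x)).card : ℕ) : ℝ) ≤
        ((h : ℝ) - 1) * (a * (1 + B) / h) := by
      rw [← hT'card, ← nsmul_eq_mul, ← Finset.sum_const]
      push_cast
      refine Finset.sum_le_sum fun x hx => ?_
      have h6 := h3 x hx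
      rw [hT', Finset.mem_filter] at hx
      have h7 := hNle c c⁻¹ x hcc (by rw [hinv, hcc]) (hcx x hx.2.1 hx.2.2)
      refine le_trans ?_ h7
      exact_mod_cast h6
    have h8 : ((∑ d ∈ A, (A.filter (fun d' => f d' = f d)).card : ℕ) : ℝ) ≤ a + ((h : ℝ) - 1) * (a * (1 + B) / h) := by
      refine le_trans (Nat.cast_le.2 h2) ?_
      rw [Nat.cast_add]
      linarith
    refine h8.trans (le_of_eq ?_)
    ring
  -- `N₁`
  have hN1 : (E.card : ℝ) ≤ 1 + ((h : ℝ) - 1) * (a * (1 + B) / h) / n := by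
    set E' : Finset G := Finset.univ.filter (fun e => e ∈ C ∧ e ≠ 1 ∧ IsConj c (c * e)) with hE'
    have h1 : E.card ≤ E'.card + 1 := by
      have h2 : E ⊆ insert 1 E' := by
        intro e he
        rw [hE, Finset.mem_filter] at he
        rw [Finset.mem_insert, hE', Finset.mem_filter]
        by_cases h3 : e = 1
        · exact Or.inl h3
        · exact Or.inr ⟨Finset.mem_univ _, he.2.1, h3, he.2.2⟩
      exact (Finset.card_le_card h2).trans (Finset.card_insert_le _ _)
    have h2 : n * E'.card ≤ ∑ x ∈ T', N c x⁻¹ c := by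
      have h3 : n * E'.card ≤ ∑ e ∈ E', (T'.filter (fun x => IsConj e x)).card := by
        rw [mul_comm, ← smul_eq_mul, ← Finset.sum_const]
        refine Finset.sum_le_sum fun e he => ?_
        rw [hE', Finset.mem_filter] at he
        obtain ⟨g, hg⟩ := hCT e he.2.1 he.2.2.1
        have h4 : g * e * g⁻¹ ≠ 1 := fun h5 => he.2.2.1 (by simpa using h5)
        refine (card_conj_in T hh hT hcent hn hg h4).trans ?_
        apply Finset.card_le_card
        intro x hx
        rw [Finset.mem_filter] at hx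
        rw [Finset.mem_filter, hT', Finset.mem_filter]
        exact ⟨⟨Finset.mem_univ _, hx.2.1⟩, (isConj_iff.2 ⟨g, rfl⟩ : IsConj e (g * e * g⁻¹)).trans hx.2.2⟩
      refine h3.trans ?_
      have h4 : ∑ e ∈ E', (T'.filter (fun x => IsConj e x)).card = ∑ x ∈ T', (E'.filter (fun e => IsConj e x)).card := by
        simp only [Finset.card_filter]
        exact Finset.sum_comm
      rw [h4]
      refine Finset.sum_le_sum fun x hx => ?_
      show _ ≤ Nat.card {p : G × G // IsConj c p.1 ∧ IsConj x⁻¹ p.2 ∧ p.1 * p.2 = c}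
      rw [Nat.card_eq_fintype_card, Fintype.card_subtype]
      refine Finset.card_le_card_of_injOn (fun e => (c * e, e⁻¹)) ?_ ?_
      · intro e he
        have he := Finset.mem_coe.1 he
        rw [Finset.mem_filter, hE', Finset.mem_filter] at he
        simp only [Finset.coe_filter, Set.mem_ofPred_eq, Finset.mem_univ, true_and]
        obtain ⟨g, hg⟩ := isConj_iff.1 he.2.symm
        refine ⟨he.1.2.2.2, isConj_iff.2 ⟨g, ?_⟩, by group⟩
        rw [← hg]
        group
      · intro e _ e' _ hee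
        simp only [Prod.mk.injEq, inv_inj] at hee
        exact hee.2
    have h3 : ((∑ x ∈ T', N c x⁻¹ c : ℕ) : ℝ) ≤ ((h : ℝ) - 1) * (a * (1 + B) / h) := by
      rw [← hT'card, ← nsmul_eq_mul, ← Finset.sum_const]
      push_cast
      refine Finset.sum_le_sum fun x hx => ?_
      rw [hT', Finset.mem_filter] at hx
      exact hNle c x⁻¹ c hcc (by rw [hinv]; exact hcx x hx.2.1 hx.2.2) hcc
    have h4 : (n : ℝ) * E'.card ≤ ((h : ℝ) - 1) * (a * (1 + B) / h) := by
      refine le_trans ?_ h3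
      exact_mod_cast h2
    have h5 : (E'.card : ℝ) ≤ ((h : ℝ) - 1) * (a * (1 + B) / h) / n := by
      rw [le_div_iff₀ hnR]
      linarith
    have h6 : (E.card : ℝ) ≤ E'.card + 1 := by exact_mod_cast h1
    linarith
  -- the contradiction
  have hfin : a ^ 2 ≤ (1 + ((h : ℝ) - 1) * (a * (1 + B) / h) / n) * (a * (1 + ((h : ℝ) - 1) * (1 + B) / h)) := by
    have h1 : a ^ 2 ≤ (E.card : ℝ) * ((∑ d ∈ A, (A.filter (fun d' => f d' = f d)).card : ℕ) : ℝ) := by
      rw [ha]
      exact_mod_cast hmain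
    refine h1.trans (mul_le_mul hN1 hN2 (Nat.cast_nonneg _) ?_)
    exact (Nat.cast_nonneg _).trans hN1
  have hGe : (h : ℝ) / Nat.card G = 1 / a := by
    rw [← hah]
    field_simp
  rw [hGe] at hlt
  have h9 : (1 + ((h : ℝ) - 1) * (a * (1 + B) / h) / n) * (a * (1 + ((h : ℝ) - 1) * (1 + B) / h)) =
      a ^ 2 * ((1 / a + ((h : ℝ) - 1) * (1 + B) / (n * h)) * (1 + ((h : ℝ) - 1) * (1 + B) / h)) := by
    field_simp
  rw [h9] at hfin
  have h10 : 0 < a ^ 2 := by positivity
  nlinarith

end Cfsg.Agent.H949.SMom
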