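import Mathlib
import Cfsg.Agent.H949.SMom
import Cfsg.Agent.H162.CC.Iface
import Cfsg.Agent.H121.ReeMin
import Cfsg.Agent.LieRecognition.ReeSetup
import Cfsg.Agent.LieRecognition.ReeFinal
import Cfsg.Agent.LieRecognition.ReeTorusTw
import Cfsg.Agent.S1116
import Cfsg.Agent.S1073

/-!
# S3828: the small Ree groups, primes dividing `q² - q + 1` (helper949)

* `second_moment_six` : the second moment lemma with `|N(T) : T| ≥ 6` and `(h - 1)^{3/2} ≤ D / 3`;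
* `crow_ree_tor`, `crow_ree_tor'`.
-/

set_option autoImplicit false
set_option linter.unusedSectionVars false

namespace Cfsg.Agent.H949.CcRee

open Cfsg Subgroup
open Cfsg.Agent.Characters Cfsg.Agent.H949.SMom Cfsg.Agent.H162.CCR
open Cfsg.Agent.LieRecognition

universe u

/-- the nontrivial irreducible characters have degree at least `b` -/
theorem norm_ge {G : Type u} [Group G] {b : ℕ}
    (h : ∀ (k : ℕ) (ρ : Representation ℂ G (Fin k → ℂ)), (∃ g, ρ g ≠ 1) → b ≤ k)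
    (χ : IrrCharacter G) (hχ : (χ : G → ℂ) ≠ 1) : (b : ℝ) ≤ ‖(χ : G → ℂ) 1‖ := by
  obtain ⟨χ, k, ρ, hρ, rfl⟩ := χ
  simp only at hχ ⊢
  have hdeg : ρ.character 1 = (k : ℂ) := by
    rw [Representation.char_one, Module.finrank_fin_fun]
  rw [hdeg, Complex.norm_natCast]
  by_cases hex : ∃ g, ρ g ≠ 1
  · exact_mod_cast h k ρ hex
  · exfalso
    push Not at hex
    have hk2 : ¬ 2 ≤ k := fun h2 => by
      obtain ⟨g, hg⟩ := H121.Chr.exists_ne_one ρ hρ h2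
      exact hg (hex g)
    have hk0 : k ≠ 0 := by
      rintro rfl
      exact Core.isIrr_apply_one_ne_zero (Core.isIrrCharacter_of_rep ρ hρ) (by rw [hdeg]; simp)
    have hk1 : k = 1 := by omega
    apply hχ
    funext g
    have h1 : ρ.character g = ρ.character 1 := by
      unfold Representation.character
      rw [hex g, hex 1]
    rw [h1, hdeg, hk1]
    simp

/-- the second moment lemma for a torus with `|N(T) : T| ≥ 6` -/
theorem second_moment_six {G : Type u} [Group G] [Finite G] {C : Set G} (hconj : ∀ g : G, ∀ c ∈ C, g * c * g⁻¹ ∈ C)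
    (hcomm : ∀ c ∈ C, ∀ d ∈ C, c⁻¹ * d⁻¹ * c * d ∈ C) {T : Subgroup G} {h : ℕ} (hT : Nat.card T = h)
    (hcent : ∀ x ∈ T, x ≠ 1 → centralizer ({x} : Set G) = T)
    (hCT : ∀ c ∈ C, c ≠ 1 → ∃ g : G, g * c * g⁻¹ ∈ T)
    (hn : 6 * h ≤ Nat.card (normalizer (T : Set G)))
    {D : ℝ} (hD0 : 0 < D) (hD : ∀ χ : IrrCharacter G, (χ : G → ℂ) ≠ 1 → D ≤ ‖(χ : G → ℂ) 1‖)
    (hB : ((h : ℝ) - 1) * Real.sqrt ((h : ℝ) - 1) ≤ 1 / 3 * D) : ∀ c ∈ C, c = 1 := by
  refine second_moment hconj hcomm hT hcent hCT (n := 6) (by norm_num) hn hD0 hD hB ?_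
  have hh : 0 < h := hT ▸ Nat.card_pos
  have hhR : (0 : ℝ) < h := by exact_mod_cast hh
  have hGpos : (0 : ℝ) < Nat.card G := by exact_mod_cast Nat.card_pos
  have h1 : (h : ℝ) / Nat.card G ≤ 1 / 6 := by
    rw [div_le_div_iff₀ hGpos (by norm_num)]
    have h2 : 6 * h ≤ Nat.card G := hn.trans (Nat.le_of_dvd Nat.card_pos (Subgroup.card_subgroup_dvd_card _))
    have h3 : (6 : ℝ) * h ≤ Nat.card G := by exact_mod_cast h2
    linarith
  have h2 : ((h : ℝ) - 1) * (1 + 1 / 3) / ((6 : ℕ) * h) ≤ 2 / 9 := by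
    push_cast
    rw [div_le_div_iff₀ (by positivity) (by norm_num)]
    nlinarith
  have h3 : 1 + ((h : ℝ) - 1) * (1 + 1 / 3) / h ≤ 7 / 3 := by
    have : ((h : ℝ) - 1) * (1 + 1 / 3) / h ≤ 4 / 3 := by
      rw [div_le_div_iff₀ hhR (by norm_num)]
      nlinarith
    linarith
  have h4 : 0 ≤ 1 + ((h : ℝ) - 1) * (1 + 1 / 3) / h := by
    have h5 : (1 : ℝ) ≤ h := by exact_mod_cast hh
    have : 0 ≤ ((h : ℝ) - 1) * (1 + 1 / 3) / h := by
      apply div_nonneg _ hhR.le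
      apply mul_nonneg (by linarith) (by norm_num)
    linarith
  calc _ ≤ (1 / 6 + 2 / 9 : ℝ) * (7 / 3) := by
        apply mul_le_mul (add_le_add h1 h2) h3 h4 (by norm_num)
    _ < 1 := by norm_num

/-- arithmetic of the torus orders -/
theorem arith_h {m q r h : ℕ} (hm : 1 ≤ m) (hq : q = 3 ^ (2 * m + 1)) (hr : r = 3 ^ (m + 1)) (hh : h ≤ q + r + 1)
    (hh1 : 1 ≤ h) :
    ((h : ℝ) - 1) * Real.sqrt ((h : ℝ) - 1) ≤ 1 / 3 * ((q ^ 2 - q + 1 : ℕ) : ℝ) := by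
  have hr3 : 3 * r ≤ q := by
    rw [hq, hr, ← pow_succ']
    exact Nat.pow_le_pow_right (by norm_num) (by omega)
  have hr9 : 9 ≤ r := by
    rw [hr]
    calc 9 = 3 ^ 2 := by norm_num
      _ ≤ 3 ^ (m + 1) := Nat.pow_le_pow_right (by norm_num) (by omega)
  have hsq : r * r = 3 * q := by
    rw [hq, hr, ← pow_add, ← pow_succ']
    congr 1
    ring
  have hR : (q : ℝ) = (r : ℝ) * r / 3 := by
    have : ((r * r : ℕ) : ℝ) = ((3 * q : ℕ) : ℝ) := by rw [hsq]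
    push_cast at this
    linarith
  have hr3R : 3 * (r : ℝ) ≤ q := by exact_mod_cast hr3
  have hr9R : (9 : ℝ) ≤ r := by exact_mod_cast hr9
  have hhR : (h : ℝ) ≤ q + r + 1 := by exact_mod_cast hh
  have hh1R : (1 : ℝ) ≤ h := by exact_mod_cast hh1
  have h1 : (h : ℝ) - 1 ≤ 4 / 3 * q := by linarith
  have h2 : Real.sqrt ((h : ℝ) - 1) ≤ 2 / 3 * r := by
    rw [Real.sqrt_le_left (by positivity)]
    rw [hR] at h1
    nlinarith
  have h3 : ((h : ℝ) - 1) * Real.sqrt ((h : ℝ) - 1) ≤ 4 / 3 * q * (2 / 3 * r) :=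
    mul_le_mul h1 h2 (Real.sqrt_nonneg _) (by positivity)
  have hqq : q ≤ q ^ 2 := by nlinarith
  have h4 : ((q ^ 2 - q + 1 : ℕ) : ℝ) = (q : ℝ) ^ 2 - q + 1 := by
    push_cast [Nat.cast_sub hqq]
    ring
  rw [h4]
  refine h3.trans ?_
  have h5 : (q : ℝ) * (3 * r) ≤ q * q := mul_le_mul_of_nonneg_left hr3R (Nat.cast_nonneg _)
  have h6 : (q : ℝ) * 9 ≤ q * r := mul_le_mul_of_nonneg_left hr9R (Nat.cast_nonneg _)
  nlinarith

/-- **The small Ree groups, primes dividing `q² - q + 1`.** -/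
theorem crow_ree_tor {K : Type u} [Field K] [Fintype K] {m : ℕ} (hm : 1 ≤ m) (hK : Fintype.card K = 3 ^ (2 * m + 1))
    {p : ℕ} [hp : Fact p.Prime] (hpd : p ∣ (3 ^ (2 * m + 1)) ^ 2 - 3 ^ (2 * m + 1) + 1) :
    CRow p ↥(Cfsg.Lie.twistedG2 K (3 ^ m)) := by
  intro C hC
  have hs : IsSimpleGroup ↥(Cfsg.Lie.twistedG2 K (3 ^ m)) := (Cfsg.Agent.S1073.result hm hK).1
  have hfin : Finite ↥(Cfsg.Lie.twistedG2 K (3 ^ m)) := inferInstance
  have hch : CharP K 3 := ReeAbs.charP_three hK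
  have D := ReeFinal.data hK
  have Dl := ReeSetup.local_of_data D hK
  have hG := Cfsg.Agent.S1116.result hK hm
  obtain ⟨f, t₀, S⟩ := ReeSetup.exists_setup D hK hG Dl
  have hcyc : ∀ x : ↥(Cfsg.Lie.twistedG2 K (3 ^ m)), x ≠ 1 →
      orderOf x ∣ (3 ^ (2 * m + 1)) ^ 2 - 3 ^ (2 * m + 1) + 1 → _ :=
    fun x hx hx1 => ReeTorusTw.isCyclic_centralizer hK hx hx1
  obtain ⟨A, B, c1, c2, k1, k2, n1, n2, z1, z2, hcov⟩ := ReeSetup.exists_tori D hm hK hG hcyc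
  have hord := ReeSetup.orders D hm hK hG hcyc
  have ar := ReeClass.arith m
  obtain ⟨p2, p3, p0, p4, p5⟩ := ar.prime_Q hp.out hpd
  have hle : 3 ^ (m + 1) ≤ 3 ^ (2 * m + 1) := Nat.pow_le_pow_right (by norm_num) (by omega)
  have hab : Nat.card A * Nat.card B = (3 ^ (2 * m + 1)) ^ 2 - 3 ^ (2 * m + 1) + 1 := by
    rw [k1, k2]
    have hr : (3 ^ (m + 1)) ^ 2 = 3 * 3 ^ (2 * m + 1) := by ring
    obtain ⟨c, hc⟩ := Nat.exists_eq_add_of_le hle
    have hQ := ar.Q_eq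
    set q := 3 ^ (2 * m + 1) with hq
    set r := 3 ^ (m + 1) with hrr
    have e1 : q - r + 1 = c + 1 := by omega
    rw [e1]
    have e2 : (c + 1) * (q + r + 1) + q = q ^ 2 + 1 := by
      rw [hc]
      have h3 : r ^ 2 = 3 * (r + c) := by rw [hr, hc]
      nlinarith
    omega
  have hnot : p ∣ Nat.card A → ¬ p ∣ Nat.card B := by
    intro h1 h2
    have h3 := Nat.dvd_sub h2 h1
    rw [k1, k2] at h3
    have h4 : 3 ^ (2 * m + 1) + 3 ^ (m + 1) + 1 - (3 ^ (2 * m + 1) - 3 ^ (m + 1) + 1) = 2 * 3 ^ (m + 1) := by omega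
    rw [h4] at h3
    rcases (Nat.Prime.dvd_mul hp.out).1 h3 with h5 | h5
    · exact p2 ((Nat.prime_dvd_prime_iff_eq hp.out Nat.prime_two).1 h5)
    · exact p3 ((Nat.prime_dvd_prime_iff_eq hp.out Nat.prime_three).1 (hp.out.dvd_of_dvd_pow h5))
  -- nontrivial elements of `C`
  have hCn : ∀ c ∈ C, c ≠ 1 → p ∣ orderOf c ∧ ∃ g, g * c * g⁻¹ ∈ A ∨ g * c * g⁻¹ ∈ B := by
    intro c hc hc1
    obtain ⟨k, hk⟩ := hC.pel c hc
    have hk0 : k ≠ 0 := by
      rintro rfl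
      rw [pow_zero, orderOf_eq_one_iff] at hk
      exact hc1 hk
    have hpo : p ∣ orderOf c := by rw [hk]; exact dvd_pow_self p hk0
    refine ⟨hpo, hcov c hc1 ?_⟩
    rcases (hord (orderOf c)).1 ⟨c, rfl⟩ with h1 | h1 | h1 | h1 | h1 | h1
    · exfalso
      have h2 := hpo.trans h1
      have h3 : (6 : ℕ) = 2 * 3 := by norm_num
      rw [h3, hp.out.dvd_mul] at h2
      rcases h2 with h2 | h2
      · exact p2 ((Nat.prime_dvd_prime_iff_eq hp.out Nat.prime_two).1 h2)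
      · exact p3 ((Nat.prime_dvd_prime_iff_eq hp.out Nat.prime_three).1 h2)
    · exfalso
      have h2 := hpo.trans h1
      have h3 : (9 : ℕ) = 3 ^ 2 := by norm_num
      rw [h3] at h2
      exact p3 ((Nat.prime_dvd_prime_iff_eq hp.out Nat.prime_three).1 (hp.out.dvd_of_dvd_pow h2))
    · exact absurd (hpo.trans h1) p4
    · exfalso
      apply p5
      refine (hpo.trans h1).trans (Nat.div_dvd_of_dvd ?_)
      have := ar.q8
      omega
    · rw [← hab, k1]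
      exact h1.mul_right _
    · rw [← hab, k2]
      exact h1.mul_left _
  have hq0 : 0 < 3 ^ (2 * m + 1) := by positivity
  have hD : ∀ χ : IrrCharacter ↥(Cfsg.Lie.twistedG2 K (3 ^ m)), (χ : ↥(Cfsg.Lie.twistedG2 K (3 ^ m)) → ℂ) ≠ 1 →
      (((3 ^ (2 * m + 1)) ^ 2 - 3 ^ (2 * m + 1) + 1 : ℕ) : ℝ) ≤ ‖(χ : ↥(Cfsg.Lie.twistedG2 K (3 ^ m)) → ℂ) 1‖ := by
    apply norm_ge
    intro k ρ hρ
    have h1 := H121.ReeMin.main ρ D hK (fun x h1 h2 => isConj_iff.mpr (S.conjG x h1 h2)) hρ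
    rwa [Module.finrank_fin_fun] at h1
  -- the torus
  have key : ∀ T : Subgroup ↥(Cfsg.Lie.twistedG2 K (3 ^ m)),
      (∀ x ∈ T, x ≠ 1 → centralizer {x} = T) → Nat.card T ≤ 3 ^ (2 * m + 1) + 3 ^ (m + 1) + 1 →
      6 * Nat.card T ≤ Nat.card (normalizer (T : Set ↥(Cfsg.Lie.twistedG2 K (3 ^ m)))) →
      (∀ c ∈ C, c ≠ 1 → ∃ g, g * c * g⁻¹ ∈ T) → ∀ c ∈ C, c = 1 := by
    intro T hT1 hT2 hT3 hT4
    exact second_moment_six hC.conj hC.comm rfl hT1 hT4 hT3 (by positivity) hD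
      (arith_h hm rfl rfl hT2 Nat.card_pos)
  rcases (Nat.Prime.dvd_mul hp.out).1 (hab ▸ hpd) with hA | hB
  · refine key A z1 (by rw [k1]; exact Nat.add_le_add_right ((Nat.sub_le _ _).trans (Nat.le_add_right _ _)) 1) (by rw [n1, k1]) fun c hc hc1 => ?_
    obtain ⟨hpo, g, hg | hg⟩ := hCn c hc hc1
    · exact ⟨g, hg⟩
    · exfalso
      apply hnot hA
      refine hpo.trans ?_
      have h1 := Subgroup.orderOf_dvd_natCard B hg
      rwa [show orderOf (g * c * g⁻¹) = orderOf c from by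
        have : g * c * g⁻¹ = MulAut.conj g c := by simp
        rw [this, MulEquiv.orderOf_eq]] at h1
  · refine key B z2 (by rw [k2]) (by rw [n2, k2]) fun c hc hc1 => ?_
    obtain ⟨hpo, g, hg | hg⟩ := hCn c hc hc1
    · exfalso
      refine hnot ?_ hB
      refine hpo.trans ?_
      have h1 := Subgroup.orderOf_dvd_natCard A hg
      rwa [show orderOf (g * c * g⁻¹) = orderOf c from by
        have : g * c * g⁻¹ = MulAut.conj g c := by simp
        rw [this, MulEquiv.orderOf_eq]] at h1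
    · exact ⟨g, hg⟩

/-- **The small Ree groups, primes dividing `q² - q + 1`.** -/
theorem crow_ree_tor' {K : Type u} [Field K] [Fintype K] {m : ℕ} (hm : 1 ≤ m) (hK : Fintype.card K = 3 ^ (2 * m + 1))
    {G : Type*} [Group G] (e : G ≃* ↥(Cfsg.Lie.twistedG2 K (3 ^ m)))
    {p : ℕ} [hp : Fact p.Prime] (hpd : p ∣ (3 ^ (2 * m + 1)) ^ 2 - 3 ^ (2 * m + 1) + 1) : CRow p G :=
  CRow.of_equiv e (crow_ree_tor hm hK hpd)

end Cfsg.Agent.H949.CcRee
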