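import Cfsg.Agent.H254.FxEvenTI

/-!
# Counting tools for fixity arguments (helper949)

* `ncard_fixedBy_conj` : `π` is a class function;
* `double_count` : `#involutions * f = index * #(involutions of H)` if all involutions fix `f` cosets;
* `burnside_const` : Burnside's lemma for a subgroup `E` all of whose non-identity elements fix `f` cosets;
* `card_conj` : size of a conjugacy class;
* `sylow_norm` : `|N(P)| = p m` with `m ∣ p - 1` for a self-centralizing Sylow subgroup of order `p`.
-/

set_option autoImplicit false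
set_option linter.style.haveILetI false
set_option linter.unusedVariables false
set_option linter.unusedSectionVars false

namespace Cfsg.Agent.H949.FxCount

open Subgroup Cfsg.Agent.H254.Ev
open Cfsg.Agent.EvenType.StrongP (mem_map_conj)

section general

variable {G : Type*} [Group G]

open scoped Pointwise in
theorem ncard_fixedBy_conj {Ω : Type*} [MulAction G Ω] (g t : G) :
    (MulAction.fixedBy Ω (g * t * g⁻¹)).ncard = (MulAction.fixedBy Ω t).ncard := by
  rw [← MulAction.smul_fixedBy, Set.ncard_smul_set]

theorem double_count [Finite G] (H : Subgroup G) (f : ℕ)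
    (hf : ∀ t : G, orderOf t = 2 → (MulAction.fixedBy (G ⧸ H) t).ncard = f) :
    {t : G | orderOf t = 2}.ncard * f = H.index * {t : G | t ∈ H ∧ orderOf t = 2}.ncard := by
  classical
  haveI := Fintype.ofFinite G
  haveI := Fintype.ofFinite (G ⧸ H)
  have h := Finset.sum_card_bipartiteAbove_eq_sum_card_bipartiteBelow
    (s := (Finset.univ.filter fun t : G => orderOf t = 2)) (t := (Finset.univ : Finset (G ⧸ H)))
    (fun (t : G) (x : G ⧸ H) => t • x = x)
  have h1 : ∀ t ∈ (Finset.univ.filter fun t : G => orderOf t = 2),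
      (Finset.bipartiteAbove (fun (t : G) (x : G ⧸ H) => t • x = x) Finset.univ t).card = f := by
    intro t ht
    rw [Finset.mem_filter] at ht
    rw [← hf t ht.2, Set.ncard_eq_toFinset_card']
    congr 1
    ext x
    rw [Finset.mem_bipartiteAbove, Set.mem_toFinset, MulAction.mem_fixedBy]
    exact ⟨fun h => h.2, fun h => ⟨Finset.mem_univ _, h⟩⟩
  have h2 : ∀ x ∈ (Finset.univ : Finset (G ⧸ H)),
      (Finset.bipartiteBelow (fun (t : G) (x : G ⧸ H) => t • x = x)
        (Finset.univ.filter fun t : G => orderOf t = 2) x).card =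
      {t : G | t ∈ H ∧ orderOf t = 2}.ncard := by
    intro x _
    obtain ⟨a, rfl⟩ := QuotientGroup.mk_surjective x
    have h3 : {t : G | t ∈ H ∧ orderOf t = 2} = (fun t => a⁻¹ * t * a) ''
        (↑(Finset.bipartiteBelow (fun (t : G) (x : G ⧸ H) => t • x = x)
        (Finset.univ.filter fun t : G => orderOf t = 2) (a : G ⧸ H)) : Set G) := by
      ext t
      constructor
      · rintro ⟨h4, h5⟩
        refine ⟨a * t * a⁻¹, ?_, by group⟩
        rw [Finset.mem_coe, Finset.mem_bipartiteBelow, Finset.mem_filter]
        refine ⟨⟨Finset.mem_univ _, ?_⟩, ?_⟩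
        · rw [← h5]
          exact (MulAut.conj a).orderOf_eq t
        · have h6 := (mk_mem_fixedBy (H := H) (a * t * a⁻¹) a).2 (by
            have : a⁻¹ * (a * t * a⁻¹) * a = t := by group
            rw [this]; exact h4)
          exact h6
      · rintro ⟨u, hu, rfl⟩
        rw [Finset.mem_coe, Finset.mem_bipartiteBelow, Finset.mem_filter] at hu
        refine ⟨(mk_mem_fixedBy (H := H) u a).1 hu.2, ?_⟩
        rw [← hu.1.2]
        have := (MulAut.conj a⁻¹).orderOf_eq u
        simpa using this
    rw [h3, Set.ncard_image_of_injective, Set.ncard_coe_finset]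
    intro u v huv
    have h7 : a⁻¹ * u * a = a⁻¹ * v * a := huv
    exact mul_left_cancel (mul_right_cancel h7)
  rw [Finset.sum_congr rfl h1, Finset.sum_congr rfl h2, Finset.sum_const, Finset.sum_const,
    smul_eq_mul, smul_eq_mul] at h
  have h4 : {t : G | orderOf t = 2}.ncard = (Finset.univ.filter fun t : G => orderOf t = 2).card := by
    rw [Set.ncard_eq_toFinset_card']
    congr 1
    ext t
    simp
  rw [h4, h, Finset.card_univ, ← Nat.card_eq_fintype_card]
  rfl

/-- Burnside's lemma for `E`, all of whose non-identity elements fix exactly `f` cosets -/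
theorem burnside_const [Finite G] (H E : Subgroup G) (f : ℕ)
    (hf : ∀ t ∈ E, t ≠ 1 → (MulAction.fixedBy (G ⧸ H) t).ncard = f) :
    Nat.card E ∣ H.index + (Nat.card E - 1) * f := by
  classical
  haveI := Fintype.ofFinite G
  haveI := Fintype.ofFinite (G ⧸ H)
  haveI := Fintype.ofFinite E
  have h := MulAction.sum_card_fixedBy_eq_card_orbits_mul_card_group E (G ⧸ H)
  rw [← Finset.add_sum_erase _ _ (Finset.mem_univ (1 : E))] at h
  have h1 : Fintype.card (MulAction.fixedBy (G ⧸ H) (1 : E)) = H.index := by
    rw [Subgroup.index, ← Nat.card_eq_fintype_card]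
    refine Nat.card_congr ⟨fun x => x.1, fun x => ⟨x, ?_⟩, fun x => rfl, fun x => rfl⟩
    rw [MulAction.mem_fixedBy, one_smul]
  have h2 : ∀ t ∈ (Finset.univ : Finset E).erase 1,
      Fintype.card (MulAction.fixedBy (G ⧸ H) t) = f := by
    intro t ht
    have ht1 : (t : G) ≠ 1 := by
      intro h3
      exact (Finset.mem_erase.1 ht).1 (Subtype.ext h3)
    rw [← hf t t.2 ht1, ← Nat.card_eq_fintype_card]
    rfl
  rw [Finset.sum_congr rfl h2, Finset.sum_const, smul_eq_mul, h1,
    Finset.card_erase_of_mem (Finset.mem_univ _), Finset.card_univ, ← Nat.card_eq_fintype_card] at h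
  exact Dvd.intro_left _ h.symm

/-- size of a conjugacy class -/
theorem card_conj [Finite G] (s : G) (p : G → Prop) (hp : ∀ t, p t ↔ ∃ g, g * s * g⁻¹ = t) :
    {t : G | p t}.ncard * Nat.card (centralizer ({s} : Set G)) = Nat.card G := by
  have h1 : {t : G | p t}.ncard = (centralizer ({s} : Set G)).index := by
    have h0 : ∀ a b : G, a⁻¹ * b ∈ centralizer ({s} : Set G) ↔ a * s * a⁻¹ = b * s * b⁻¹ := by
      intro a b
      rw [mem_centralizer_singleton_iff]
      constructor
      · intro h
        have e : b * s = a * s * a⁻¹ * b := by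
          calc b * s = a * (a⁻¹ * b * s) := by group
            _ = a * (s * (a⁻¹ * b)) := by rw [h]
            _ = a * s * a⁻¹ * b := by group
        rw [e]; group
      · intro h
        calc a⁻¹ * b * s = a⁻¹ * (b * s * b⁻¹) * b := by group
          _ = a⁻¹ * (a * s * a⁻¹) * b := by rw [h]
          _ = s * (a⁻¹ * b) := by group
    rw [← Nat.card_coe_set_eq, Subgroup.index]
    refine (Nat.card_congr (Equiv.ofBijective
      (Quotient.lift (fun g : G => (⟨g * s * g⁻¹, (hp _).2 ⟨g, rfl⟩⟩ : {t : G | p t})) ?_)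
      ⟨?_, ?_⟩)).symm
    · intro a b hab
      apply Subtype.ext
      show a * s * a⁻¹ = b * s * b⁻¹
      rw [← h0]
      exact QuotientGroup.leftRel_apply.1 hab
    · intro a b
      refine Quotient.inductionOn₂ a b ?_
      intro a b hab
      apply Quotient.sound
      apply QuotientGroup.leftRel_apply.2
      rw [h0]
      exact congrArg Subtype.val hab
    · rintro ⟨t, ht⟩
      obtain ⟨g, hg⟩ := (hp t).1 ht
      exact ⟨QuotientGroup.mk g, Subtype.ext hg⟩
  rw [h1]
  exact (centralizer ({s} : Set G)).index_mul_card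

theorem sylow_norm [Finite G] {p : ℕ} [hp : Fact p.Prime] (P : Sylow p G)
    (hP : Nat.card P = p) (hc : ∀ g ∈ centralizer ((P : Subgroup G) : Set G), ∀ q : ℕ, q.Prime →
      q ≠ p → orderOf g ≠ q) :
    ∃ m, m ∣ p - 1 ∧ Nat.card (normalizer ((P : Subgroup G) : Set G)) = p * m := by
  classical
  have hPS : Nat.card (P : Subgroup G) = p := hP
  haveI : IsCyclic (P : Subgroup G) := isCyclic_of_prime_card hPS
  obtain ⟨f, hf⟩ : ∃ f, f = (P : Subgroup G).normalizerMonoidHom := ⟨_, rfl⟩
  have h1 : Nat.card f.range ∣ p - 1 := by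
    have h2 := Subgroup.card_subgroup_dvd_card f.range
    rw [IsCyclic.card_mulAut, hPS, Nat.totient_prime hp.out] at h2
    exact h2
  have hcomm : ∀ x ∈ (P : Subgroup G), ∀ y ∈ (P : Subgroup G), x * y = y * x := by
    intro x hx y hy
    letI := IsCyclic.commGroup (α := (P : Subgroup G))
    have := mul_comm (⟨x, hx⟩ : (P : Subgroup G)) ⟨y, hy⟩
    exact congrArg Subtype.val this
  have hPC : (P : Subgroup G) ≤ centralizer ((P : Subgroup G) : Set G) := by
    intro x hx
    rw [mem_centralizer_iff]
    intro y hy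
    exact hcomm y hy x hx
  -- the centralizer is a `p`-group
  have hCp : IsPGroup p (centralizer ((P : Subgroup G) : Set G)) := by
    rw [IsPGroup.iff_card]
    refine ⟨_, Nat.eq_prime_pow_of_unique_prime_dvd Nat.card_pos.ne' ?_⟩
    intro q hq hqd
    haveI := Fact.mk hq
    obtain ⟨g, hg⟩ := exists_prime_orderOf_dvd_card' q hqd
    by_contra hne
    exact hc g g.2 q hq hne (by rw [Subgroup.orderOf_coe]; exact hg)
  have hC : centralizer ((P : Subgroup G) : Set G) = P := P.is_maximal' hCp hPC
  have h2 : Nat.card f.ker = p := by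
    rw [hf, Subgroup.normalizerMonoidHom_ker, hC]
    rw [Nat.card_congr (Subgroup.subgroupOfEquivOfLe le_normalizer).toEquiv]
    exact hPS
  refine ⟨Nat.card f.range, h1, ?_⟩
  have h3 := f.ker.card_mul_index
  rw [h2, Subgroup.index_ker] at h3
  exact h3.symm

end general

end Cfsg.Agent.H949.FxCount
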