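import Cfsg.Agent.OddHalf.D9.EEight.RowFinal

/-!
# A double cover of `Ω₈⁺(2)` in a simple group, normal in the centralizer of its central involution (helper949)

`false_of_core`: `X` finite simple, `L ≤ X` perfect with centre `⟨z⟩` of order 2 and `L / ⟨z⟩ ≅ Ω₈⁺(2)`,
`C_X(z) ≤ N_X(L)`, the Sylow 2-subgroups of `C_X(L)` cyclic. Then `O(C_X(z)) ≠ 1`.
-/

set_option autoImplicit false

namespace Cfsg.Agent.H949.O8Core

open Subgroup Cfsg Cfsg.Agent.OddHalf.D9.EEight
open Cfsg.Agent.OddHalf.D4.EvenEFacts (AutConj)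

universe u

/-- `C_X(L)` is a cyclic 2-group -/
theorem cen_two {G : Type u} [Group G] [Finite G] {L : Subgroup G} {z : G} (hzL : z ∈ L)
    (hN : centralizer ({z} : Set G) ≤ normalizer (L : Set G))
    (hcyc : ∀ R : Sylow 2 ↥(centralizer (L : Set G)), IsCyclic ↥(R : Subgroup ↥(centralizer (L : Set G))))
    (hO : centralizerPPrimeCore 2 z = ⊥) :
    IsCyclic ↥(centralizer (L : Set G)) ∧ IsPGroup 2 ↥(centralizer (L : Set G)) := by
  set D : Subgroup G := centralizer (L : Set G) with hD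
  obtain ⟨P⟩ : Nonempty (Sylow 2 ↥D) := inferInstance
  have hPc := hcyc P
  obtain ⟨N, hNodd, hNP, hNm⟩ := Cfsg.Agent.CharactersDeep.QuatSylow.exists_two_complement P hPc
  have hDz : D ≤ centralizer ({z} : Set G) := by
    intro x hx
    rw [mem_centralizer_singleton_iff]
    exact (mem_centralizer_iff.1 hx z hzL).symm
  set N2 : Subgroup G := N.map D.subtype with hN2
  have hmem : ∀ x : G, x ∈ N2 ↔ x ∈ D ∧ Odd (orderOf x) := by
    intro x
    constructor
    · rintro ⟨w, hw, rfl⟩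
      refine ⟨w.2, ?_⟩
      have h1 := (hNm w).1 hw
      have h2 : orderOf (D.subtype w) = orderOf w := orderOf_injective _ D.subtype_injective w
      rw [h2]; exact h1
    · rintro ⟨hx, ho⟩
      refine ⟨⟨x, hx⟩, ?_, rfl⟩
      apply (hNm _).2
      rw [← orderOf_injective _ D.subtype_injective]
      exact ho
  have hN2C : N2 ≤ centralizer ({z} : Set G) := fun x hx => hDz ((hmem x).1 hx).1
  have hnorm : (N2.subgroupOf (centralizer ({z} : Set G))).Normal := by
    refine ⟨fun x hx g => ?_⟩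
    rw [mem_subgroupOf, hmem] at hx ⊢
    obtain ⟨hx1, hx3⟩ := hx
    have hg : (g : G) ∈ normalizer (L : Set G) := hN g.2
    refine ⟨?_, ?_⟩
    · show (g : G) * x * (g : G)⁻¹ ∈ D
      rw [hD, mem_centralizer_iff] at hx1 ⊢
      intro k hk
      have h1 : (g : G)⁻¹ * k * g ∈ (L : Set G) := (mem_normalizer_iff''.1 hg k).1 hk
      have h2 := hx1 _ h1
      calc k * ((g : G) * x * (g : G)⁻¹) = g * ((g : G)⁻¹ * k * g * x) * (g : G)⁻¹ := by group
        _ = g * (x * ((g : G)⁻¹ * k * g)) * (g : G)⁻¹ := by rw [h2]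
        _ = (g : G) * x * (g : G)⁻¹ * k := by group
    · have h1 : orderOf ((g : G) * x * (g : G)⁻¹) = orderOf (x : G) := by
        have h2 : (g : G) * x * (g : G)⁻¹ = MulAut.conj (g : G) x := rfl
        rw [h2]
        exact orderOf_injective (MulAut.conj (g : G)).toMonoidHom (MulAut.conj (g : G)).injective _
      show Odd (orderOf ((g : G) * x * (g : G)⁻¹))
      rw [h1]; exact hx3
  have hcard : (Nat.card ↥(N2.subgroupOf (centralizer ({z} : Set G)))).Coprime 2 := by
    have h1 : Nat.card ↥(N2.subgroupOf (centralizer ({z} : Set G))) = Nat.card ↥N2 :=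
      Nat.card_congr (subgroupOfEquivOfLe hN2C).toEquiv
    have h2 : Nat.card ↥N2 = Nat.card ↥N := by
      rw [hN2, ← Nat.card_congr (N.equivMapOfInjective _ D.subtype_injective).toEquiv]
    rw [h1, h2]
    exact Nat.coprime_two_right.2 hNodd
  have hle := Cfsg.Agent.Lib.Cores.le_pPrimeCore hnorm hcard
  have h3 : N2 = ⊥ := by
    rw [eq_bot_iff]
    intro x hx
    have h4 : (⟨x, hN2C hx⟩ : centralizer ({z} : Set G)) ∈
        pPrimeCore 2 ↥(centralizer ({z} : Set G)) := hle (mem_subgroupOf.2 hx)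
    have h5 : x ∈ centralizerPPrimeCore 2 z := ⟨_, h4, rfl⟩
    rw [hO] at h5
    exact h5
  have hNbot : N = ⊥ := by
    rw [eq_bot_iff]
    intro x hx
    have h6 : D.subtype x ∈ N2 := ⟨_, hx, rfl⟩
    rw [h3, mem_bot] at h6
    rw [mem_bot]
    exact Subtype.ext h6
  rw [hNbot, bot_sup_eq] at hNP
  have e : (P : Subgroup ↥D) ≃* ↥D := (MulEquiv.subgroupCongr hNP).trans Subgroup.topEquiv
  refine ⟨isCyclic_of_surjective e e.surjective, ?_⟩
  exact P.isPGroup'.of_equiv e

/-- **The core case.** -/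
theorem false_of_core {G : Type u} [Group G] [Finite G] [IsSimpleGroup G] {K : Subgroup G}
    (hp : commutator ↥K = ⊤) (h2 : Nat.card ↥(center ↥K) = 2)
    (hX : Cfsg.Agent.OddHalf.D9.Cut.XO82 (↥K ⧸ center ↥K)) {z : G} (hzK : z ∈ K)
    (hzc : z ∈ centralizer (K : Set G)) (hz1 : z ≠ 1)
    (hN : centralizer ({z} : Set G) ≤ normalizer (K : Set G))
    (hcyc : ∀ R : Sylow 2 ↥(centralizer (K : Set G)), IsCyclic ↥(R : Subgroup ↥(centralizer (K : Set G))))
    (hO : centralizerPPrimeCore 2 z = ⊥) : False := by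
  obtain ⟨hc1, hc2⟩ := cen_two hzK hN hcyc hO
  obtain ⟨θ⟩ := RowFinal.ident.{u} ↥K inferInstance hp h2 hX
  have hA := RowFinal.autConj
  have E := EFInst.ef
  let c₀ : ↥det.ker := ⟨neg, E.c_det⟩
  let z' : ↥K := ⟨z, hzK⟩
  have hθz : θ z' = c₀ := by
    have h1 : ∀ k : W, det k = 1 → (θ z' : W) * k = k * (θ z' : W) := by
      intro k hk
      obtain ⟨x, hx⟩ := θ.surjective ⟨k, hk⟩
      have h3 : x * z' = z' * x := Subtype.ext (mem_centralizer_iff.1 hzc x x.2)
      have h4 := congrArg (fun y => ((θ y : ↥det.ker) : W)) h3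
      simp only [map_mul, hx] at h4
      exact h4.symm
    rcases E.cenK (θ z' : W) h1 with h3 | h3
    · refine absurd ((map_eq_one_iff θ θ.injective).1 (Subtype.ext h3)) ?_
      intro h
      exact hz1 (congrArg Subtype.val h)
    · exact Subtype.ext h3
  let φ : ↥det.ker →* G := K.subtype.comp θ.symm.toMonoidHom
  have hφ : ∀ x, φ x = ((θ.symm x : ↥K) : G) := fun _ => rfl
  have hinj : Function.Injective φ := by
    intro a b h
    exact θ.symm.injective (Subtype.ext h)
  have hφz : φ c₀ = z := by rw [hφ, ← hθz, θ.symm_apply_apply]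
  have hrange : (φ.range : Set G) = (K : Set G) := by
    ext x
    constructor
    · rintro ⟨y, rfl⟩
      exact (θ.symm y).2
    · intro hx
      exact ⟨θ ⟨x, hx⟩, by rw [hφ, θ.symm_apply_apply]⟩
  refine false_of_hom E φ hinj (z := z) hφz ?_ ?_ ?_
  · rw [hrange]; exact hc1
  · rw [hrange]; exact hc2
  · intro h hh
    have hn : h ∈ normalizer (K : Set G) := hN (mem_centralizer_singleton_iff.2 hh)
    have hmap : ∀ k : ↥K, h * (k : G) * h⁻¹ ∈ K := fun k => (mem_normalizer_iff.1 hn _).1 k.2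
    have hmap' : ∀ k : ↥K, h⁻¹ * (k : G) * h ∈ K := fun k => by
      rw [mem_normalizer_iff.1 hn]
      have : h * (h⁻¹ * (k : G) * h) * h⁻¹ = k := by group
      rw [this]
      exact k.2
    let β : MulAut ↥K :=
      { toFun := fun k => ⟨h * k * h⁻¹, hmap k⟩
        invFun := fun k => ⟨h⁻¹ * k * h, hmap' k⟩
        left_inv := fun k => Subtype.ext (by
          show h⁻¹ * (h * k * h⁻¹) * h = k
          group)
        right_inv := fun k => Subtype.ext (by
          show h * (h⁻¹ * k * h) * h⁻¹ = k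
          group)
        map_mul' := fun a b => Subtype.ext (by
          show h * ((a : G) * b) * h⁻¹ = (h * a * h⁻¹) * (h * b * h⁻¹)
          group) }
    have hβ : ∀ k : ↥K, ((β k : ↥K) : G) = h * k * h⁻¹ := fun _ => rfl
    obtain ⟨w, hw⟩ := hA ((θ.symm.trans β).trans θ)
    refine ⟨w, fun k => ?_⟩
    have h3 := hw k
    have h4 : θ (β (θ.symm k)) = ⟨w * k * w⁻¹, det_conj k.2⟩ := Subtype.ext h3
    rw [hφ, hφ, ← h4, θ.symm_apply_apply, hβ]

end Cfsg.Agent.H949.O8Core
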