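import Mathlib
import Cfsg.Agent.OddHalf.D5.SixAut.Theta

/-!
# Subgroups of index 6 of `S_6`

A subgroup of index 6 of `Perm (Fin 6)` is a point stabilizer or the image of one under the outer automorphism `θ`.
-/

set_option autoImplicit false

namespace Cfsg.Agent.H949.SSix

open Equiv MulAction
open Cfsg.Agent.OddHalf.D5.SixAut (T θ θ_θ thp_swap thp_T θ_apply)

/-- odd involutions of `S_6` -/
theorem odd_invol : ∀ σ : Perm (Fin 6), σ * σ = 1 → Perm.sign σ = -1 →
    (∃ a b, a ≠ b ∧ σ = swap a b) ∨ (∃ a b, a ≠ b ∧ σ = T a b) := by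
  decide +kernel

theorem T_ne : ∀ a b : Fin 6, a ≠ b → ∀ x, T a b x ≠ x := by decide +kernel

theorem five : ∀ σ : Perm (Fin 6), σ ^ 5 = 1 → σ ≠ 1 →
    ∃ p, σ p = p ∧ ∀ x y, x ≠ p → y ≠ p → ∃ k : Fin 5, (σ ^ (k : ℕ)) x = y := by
  decide +kernel

theorem fin5 : ∀ j k : Fin 5, j ≠ 0 → ∃ m : Fin 5, ((m : ℕ) * (j : ℕ)) % 5 = (k : ℕ) := by
  decide

/-- A subgroup of `S_6` of order divisible by 5 containing a transposition contains a point stabilizer. -/
theorem stab_le (H : Subgroup (Perm (Fin 6))) (h5 : 5 ∣ Nat.card H) {a b : Fin 6} (hab : a ≠ b)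
    (hs : swap a b ∈ H) : ∃ p : Fin 6, stabilizer (Perm (Fin 6)) p ≤ H := by
  have := Fact.mk Nat.prime_five
  obtain ⟨⟨σ, hσH⟩, hσ⟩ := exists_prime_orderOf_dvd_card' (G := H) 5 h5
  have hord : orderOf σ = 5 := by rw [← hσ]; exact (Subgroup.orderOf_mk σ hσH).symm
  have h51 : σ ^ 5 = 1 := by rw [← hord]; exact pow_orderOf_eq_one σ
  have hne : σ ≠ 1 := by
    rintro rfl
    rw [orderOf_one] at hord
    omega
  obtain ⟨p, hp, htr⟩ := five σ h51 hne
  have hpk : ∀ k : ℕ, (σ ^ k) p = p := by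
    intro k
    induction k with
    | zero => rfl
    | succ k ih => rw [pow_succ, Perm.mul_apply, hp, ih]
  -- the relation
  let R : Fin 6 → Fin 6 → Prop := fun x y => swap x y ∈ H
  have hRs : ∀ x y, R x y → R y x := fun x y h => by
    show swap y x ∈ H
    rw [swap_comm]
    exact h
  have hRc : ∀ x y (τ : Perm (Fin 6)), τ ∈ H → R x y → R (τ x) (τ y) := by
    intro x y τ hτ h
    show swap (τ x) (τ y) ∈ H
    have : swap (τ x) (τ y) = τ * swap x y * τ⁻¹ := by
      rw [Equiv.swap_apply_apply]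
    rw [this]
    exact H.mul_mem (H.mul_mem hτ h) (H.inv_mem hτ)
  have hRr : ∀ x, R x x := fun x => by
    show swap x x ∈ H
    rw [swap_self]
    exact H.one_mem
  have hRt : ∀ x y z, R x y → R y z → R x z := by
    intro x y z hxy hyz
    by_cases h1 : x = z
    · rw [h1]; exact hRr z
    by_cases h2 : x = y
    · rw [h2]; exact hyz
    have h := hRc y z (swap x y) hxy hyz
    rw [swap_apply_right] at h
    by_cases h3 : z = y
    · rw [h3]; exact hxy
    · rwa [swap_apply_of_ne_of_ne (Ne.symm h1) h3] at h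
  have hRp : ∀ x y (k : ℕ), R x y → R ((σ ^ k) x) ((σ ^ k) y) := fun x y k h =>
    hRc x y (σ ^ k) (H.pow_mem hσH k) h
  have hall : ∀ x y, x ≠ p → y ≠ p → R x y := by
    -- reduce to a base point
    suffices h : ∃ c, ∀ y, y ≠ p → R c y by
      obtain ⟨c, hc⟩ := h
      intro x y hx hy
      exact hRt x c y (hRs _ _ (hc x hx)) (hc y hy)
    by_cases hap : a = p
    · refine ⟨p, fun y hy => ?_⟩
      have hbp : b ≠ p := fun h => hab (hap.trans h.symm)
      obtain ⟨k, hk⟩ := htr b y hbp hy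
      have := hRp a b k hs
      rw [hk, hap, hpk] at this
      exact this
    by_cases hbp : b = p
    · refine ⟨p, fun y hy => ?_⟩
      obtain ⟨k, hk⟩ := htr a y hap hy
      have := hRp a b k hs
      rw [hk, hbp, hpk] at this
      exact hRs _ _ this
    · refine ⟨a, fun y hy => ?_⟩
      obtain ⟨j, hj⟩ := htr a b hap hbp
      obtain ⟨k, hk⟩ := htr a y hap hy
      have hj0 : j ≠ 0 := by
        rintro rfl
        exact hab hj
      obtain ⟨m, hm⟩ := fin5 j k hj0
      have key : ∀ m : ℕ, R a ((σ ^ (m * (j : ℕ))) a) := by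
        intro m
        induction m with
        | zero => simpa using hRr a
        | succ m ih =>
          have h1 := hRp a b (m * (j : ℕ)) hs
          rw [← hj, ← Perm.mul_apply, ← pow_add] at h1
          have h2 := hRt _ _ _ ih h1
          have h3 : (m + 1) * (j : ℕ) = m * (j : ℕ) + (j : ℕ) := by ring
          rw [h3]
          exact h2
      have h4 := key m
      have h5' : σ ^ ((m : ℕ) * (j : ℕ)) = σ ^ (k : ℕ) := by
        rw [← hm]
        have := pow_mod_orderOf σ ((m : ℕ) * (j : ℕ))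
        rw [hord] at this
        exact this.symm
      rw [h5', hk] at h4
      exact h4
  refine ⟨p, fun τ hτ => ?_⟩
  have hcl : Subgroup.closure {s : Perm (Fin 6) | s ∈ H ∧ s.IsSwap} ≤ H := by
    rw [Subgroup.closure_le]
    exact fun s hs => hs.1
  apply hcl
  rw [_root_.mem_closure_isSwap (fun s hs => hs.2)]
  refine ⟨Set.toFinite _, fun x => ?_⟩
  have hτp : τ p = p := hτ
  by_cases hx : x = p
  · rw [hx, hτp]
    exact mem_orbit_self _
  · have hy : τ x ≠ p := fun h => hx (τ.injective (h.trans hτp.symm))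
    by_cases he : x = τ x
    · rw [← he]
      exact mem_orbit_self _
    · exact ⟨⟨swap x (τ x), Subgroup.subset_closure ⟨hall x _ hx hy, ⟨x, τ x, he, rfl⟩⟩⟩,
        swap_apply_left _ _⟩

theorem card_perm6 : Nat.card (Perm (Fin 6)) = 720 := by
  rw [Nat.card_perm, Nat.card_eq_fintype_card, Fintype.card_fin]
  rfl

theorem index_stab (p : Fin 6) : (stabilizer (Perm (Fin 6)) p).index = 6 := by
  rw [MulAction.index_stabilizer_of_transitive]
  simp

theorem card_of_index {H : Subgroup (Perm (Fin 6))} (h : H.index = 6) : Nat.card H = 120 := by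
  have := H.card_mul_index
  rw [h, card_perm6] at this
  omega

/-- A subgroup of index 6 containing a transposition is a point stabilizer. -/
theorem eq_stab {H : Subgroup (Perm (Fin 6))} (h : H.index = 6) {a b : Fin 6} (hab : a ≠ b)
    (hs : swap a b ∈ H) : ∃ p : Fin 6, H = stabilizer (Perm (Fin 6)) p := by
  obtain ⟨p, hp⟩ := stab_le H (by rw [card_of_index h]; norm_num) hab hs
  refine ⟨p, (Subgroup.eq_of_le_of_card_ge hp ?_).symm⟩
  rw [card_of_index h, card_of_index (index_stab p)]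

/-- `θ` as an automorphism -/
def thE : Perm (Fin 6) ≃* Perm (Fin 6) :=
  MonoidHom.toMulEquiv θ θ (MonoidHom.ext θ_θ) (MonoidHom.ext θ_θ)

theorem thE_apply (σ : Perm (Fin 6)) : thE σ = θ σ := rfl

/-- A subgroup of index 6 is a point stabilizer or the image of one under `θ`. -/
theorem classify {H : Subgroup (Perm (Fin 6))} (h : H.index = 6) :
    (∃ p : Fin 6, H = stabilizer (Perm (Fin 6)) p) ∨
    (∃ p : Fin 6, H = (stabilizer (Perm (Fin 6)) p).comap θ) := by
  classical
  -- the coset action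
  have hfin : Nat.card (Perm (Fin 6) ⧸ H) = 6 := h
  have e : (Perm (Fin 6) ⧸ H) ≃ Fin 6 := Finite.equivFinOfCardEq hfin
  let f : Perm (Fin 6) →* Perm (Perm (Fin 6) ⧸ H) := MulAction.toPermHom _ _
  have hker : f.ker = ⊥ := by
    by_contra hne
    have hnt : Nontrivial f.ker := (Subgroup.nontrivial_iff_ne_bot _).mpr hne
    have hA : alternatingGroup (Fin 6) ≤ f.ker :=
      Equiv.Perm.alternatingGroup_le_of_normal (by simp) hnt
    have hle : f.ker ≤ H := by
      rw [← Subgroup.normalCore_eq_ker]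
      exact H.normalCore_le
    have hd := Subgroup.index_dvd_of_le (hA.trans hle)
    rw [alternatingGroup.index_eq_two, h] at hd
    omega
  have hinj : Function.Injective f := (MonoidHom.ker_eq_bot_iff _).mp hker
  have hcardP : Nat.card (Perm (Perm (Fin 6) ⧸ H)) = Nat.card (Perm (Fin 6)) := by
    rw [Nat.card_perm, Nat.card_perm, hfin]
    simp
  have hbij : Function.Bijective f := by
    refine ⟨hinj, ?_⟩
    have := (Nat.bijective_iff_injective_and_card f).mpr ⟨hinj, hcardP.symm⟩
    exact this.2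
  let E : Perm (Fin 6) ≃* Perm (Perm (Fin 6) ⧸ H) := MulEquiv.ofBijective f hbij
  let x0 : Perm (Fin 6) ⧸ H := ((1 : Perm (Fin 6)) : Perm (Fin 6) ⧸ H)
  have hmem : ∀ σ : Perm (Fin 6), σ ∈ H ↔ E σ x0 = x0 := by
    intro σ
    show σ ∈ H ↔ σ • x0 = x0
    rw [← MulAction.mem_stabilizer_iff, MulAction.stabilizer_quotient]
  -- a transposition of cosets fixing `x0`
  obtain ⟨y, hy⟩ : ∃ y : Perm (Fin 6) ⧸ H, y ≠ x0 := by
    refine ⟨e.symm (e x0 + 1), fun hc => ?_⟩
    have := congrArg e hc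
    rw [e.apply_symm_apply] at this
    revert this
    generalize e x0 = z
    revert z
    decide
  obtain ⟨z, hz, hzy⟩ : ∃ z : Perm (Fin 6) ⧸ H, z ≠ x0 ∧ z ≠ y := by
    have : ∀ u v : Fin 6, ∃ w : Fin 6, w ≠ u ∧ w ≠ v := by decide
    obtain ⟨w, hw1, hw2⟩ := this (e x0) (e y)
    refine ⟨e.symm w, fun hc => hw1 ?_, fun hc => hw2 ?_⟩
    · rw [← hc, e.apply_symm_apply]
    · rw [← hc, e.apply_symm_apply]
  set t : Perm (Fin 6) := E.symm (swap y z) with ht
  have htH : t ∈ H := by
    rw [hmem, ht, E.apply_symm_apply]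
    exact swap_apply_of_ne_of_ne hy.symm hz.symm
  have htt : t * t = 1 := by
    rw [ht, ← map_mul, swap_mul_self, map_one]
  -- odd
  have hsign : Perm.sign t = -1 := by
    let s : Perm (Perm (Fin 6) ⧸ H) →* ℤˣ := Perm.sign.comp E.symm.toMonoidHom
    have hs : Function.Surjective s := by
      refine (Equiv.Perm.sign_surjective (Fin 6)).comp E.symm.surjective
    have hs' : s = Perm.sign := Equiv.Perm.eq_sign_of_surjective_hom hs
    have : s (swap y z) = Perm.sign (swap y z) := by rw [hs']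
    rw [Perm.sign_swap hzy.symm] at this
    exact this
  rcases odd_invol t htt hsign with ⟨a, b, hab, hs⟩ | ⟨a, b, hab, hT⟩
  · left
    rw [hs] at htH
    exact eq_stab h hab htH
  · right
    have h' : (H.comap θ).index = 6 := by
      rw [Subgroup.index_comap_of_surjective _ thE.surjective, h]
    have hs' : swap a b ∈ H.comap θ := by
      rw [Subgroup.mem_comap, θ_apply, thp_swap, ← hT]
      exact htH
    obtain ⟨p, hp⟩ := eq_stab h' hab hs'
    refine ⟨p, ?_⟩
    rw [← hp]
    ext σ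
    rw [Subgroup.mem_comap, Subgroup.mem_comap, θ_θ]

/-- distinctness -/
theorem stab_ne_comap (p q : Fin 6) :
    stabilizer (Perm (Fin 6)) p ≠ (stabilizer (Perm (Fin 6)) q).comap θ := by
  intro h
  obtain ⟨a, b, hab, ha, hb⟩ : ∃ a b : Fin 6, a ≠ b ∧ a ≠ p ∧ b ≠ p := by
    have := (by decide : ∀ p : Fin 6, ∃ a b : Fin 6, a ≠ b ∧ a ≠ p ∧ b ≠ p)
    exact this p
  have h1 : swap a b ∈ stabilizer (Perm (Fin 6)) p :=
    MulAction.mem_stabilizer_iff.mpr (swap_apply_of_ne_of_ne ha.symm hb.symm)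
  rw [h, Subgroup.mem_comap, MulAction.mem_stabilizer_iff, θ_apply, thp_swap] at h1
  exact T_ne a b hab q h1

theorem stab_inj {p q : Fin 6}
    (h : stabilizer (Perm (Fin 6)) p = stabilizer (Perm (Fin 6)) q) : p = q := by
  by_contra hne
  obtain ⟨a, ha, hb⟩ : ∃ a : Fin 6, a ≠ p ∧ a ≠ q := by
    have := (by decide : ∀ p q : Fin 6, ∃ a : Fin 6, a ≠ p ∧ a ≠ q)
    exact this p q
  have h1 : swap a q ∈ stabilizer (Perm (Fin 6)) p :=
    MulAction.mem_stabilizer_iff.mpr (swap_apply_of_ne_of_ne ha.symm hne)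
  rw [h, MulAction.mem_stabilizer_iff] at h1
  have h2 : swap a q q = q := h1
  rw [swap_apply_right] at h2
  exact hb h2

theorem comap_inj {p q : Fin 6}
    (h : (stabilizer (Perm (Fin 6)) p).comap θ = (stabilizer (Perm (Fin 6)) q).comap θ) : p = q :=
  stab_inj (Subgroup.comap_injective thE.surjective h)

end Cfsg.Agent.H949.SSix
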